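import Cfsg.Agent.INV.Sym4.Setup
import Cfsg.Agent.CLAS.WrO1
import Cfsg.Agent.S1781

/-!
A conjugacy class of abelian TI 2-subgroups, neither cyclic nor elementary, whose normalisers are
maximal 2-local subgroups of characteristic two: near pairs.
-/

set_option autoImplicit false

namespace CL.TIA

open Subgroup Cfsg CL.MSS CL.Sym4

variable {G : Type*} [Group G]

abbrev nm (R : Subgroup G) : Subgroup G := normalizer (R : Set G)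

abbrev qq (R : Subgroup G) : Subgroup G := pCoreOf 2 (nm R)

/-- `a` lies in `Ω₁(R)`. -/
def I (R : Subgroup G) (a : G) : Prop := a ∈ R ∧ a * a = 1

structure TI (P : Subgroup G → Prop) : Prop where
  cj : ∀ {R} (g : G), P R → P (g •ᶜ R)
  tr : ∀ {R R'}, P R → P R' → ∃ g : G, g •ᶜ R = R'
  ab : ∀ {R a b}, P R → a ∈ R → b ∈ R → Commute a b
  p2 : ∀ {R}, P R → IsPGroup 2 R
  ti : ∀ {R R' a}, P R → P R' → a ∈ R → a ∈ R' → a ≠ 1 → R = R'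
  o4 : ∀ {R}, P R → ∃ a ∈ R, a * a ≠ 1 ∧ a * a * (a * a) = 1
  f4 : ∀ {R}, P R → ∃ s t, I R s ∧ I R t ∧ s ≠ 1 ∧ t ≠ 1 ∧ s ≠ t
  c2 : ∀ {R m}, P R → m ∈ nm R → (∀ q ∈ qq R, Commute m q) → m ∈ qq R
  mx : ∀ {R W : Subgroup G}, P R → IsPGroup 2 W → W ≠ ⊥ → nm R ≤ nm W → nm W ≤ nm R

def Cm (R R' : Subgroup G) : Prop := ∀ a ∈ R, ∀ c ∈ R', Commute a c

def Nr (R R' : Subgroup G) : Prop := ∃ x ∈ R', x ≠ 1 ∧ x ∈ nm R

variable {P : Subgroup G → Prop} {R R' H : Subgroup G} {a b c d e g m s t x y : G}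

theorem nmem (h : g ∈ nm R) (ha : a ∈ R) : g * a * g⁻¹ ∈ R := (mem_normalizer_iff.1 h a).1 ha

theorem nmem' (h : g ∈ nm R) (ha : a ∈ R) : g⁻¹ * a * g ∈ R := by simpa using nmem (inv_mem h) ha

theorem nm_cj : g * m * g⁻¹ ∈ nm (g •ᶜ R) ↔ m ∈ nm R := by rw [nm, ← cj_normalizer, conj_mem_cj_iff]

theorem I.one : I R 1 := ⟨one_mem _, one_mul _⟩

theorem I.inv (h : I R a) : a⁻¹ = a := inv_of_sq h.2

theorem I.cj (h : I R a) (g : G) : I (g •ᶜ R) (g * a * g⁻¹) :=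
  ⟨conj_mem_cj h.1, by rw [cj_mul_cj, h.2]; simp⟩

theorem I.nm (h : I R a) (hg : g ∈ nm R) : I R (g * a * g⁻¹) := by
  simpa only [mem_normalizer_iff_cj.1 hg] using h.cj g

theorem I.of_cj (h : I (g •ᶜ R) a) : ∃ b, I R b ∧ g * b * g⁻¹ = a :=
  ⟨_, inv_cj_cj g R ▸ h.cj g⁻¹, by group⟩

theorem Cm.symm (h : Cm R R') : Cm R' R := fun a ha c hc => (h c hc a ha).symm

theorem Cm.cj (h : Cm R R') (g : G) : Cm (g •ᶜ R) (g •ᶜ R') := fun a ha c hc => by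
  obtain ⟨a, ha', rfl⟩ := mem_cj'.1 ha
  obtain ⟨c, hc', rfl⟩ := mem_cj'.1 hc
  exact (cm_cj g).2 (h a ha' c hc')

theorem Nr.cj (h : Nr R R') (g : G) : Nr (g •ᶜ R) (g •ᶜ R') :=
  let ⟨_, h1, h2, h3⟩ := h
  ⟨_, conj_mem_cj h1, mt conj_eq_one_iff.1 h2, nm_cj.2 h3⟩

theorem cm_nrm (h : s * s = 1) (c : Commute b (s * b * s⁻¹)) : Commute (b * (s * b * s⁻¹)) s := by
  rw [commute_iff_eq]
  calc b * (s * b * s⁻¹) * s = (s * s) * b * s⁻¹⁻¹ * b := by rw [h]; group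
    _ = s * (s * b * s⁻¹ * b) := by rw [inv_of_sq h, inv_of_sq h]; group
    _ = _ := by rw [← c.eq]

theorem dmod [Finite G] {V : Subgroup G} (ha : a ∈ nm V) (hb : b ∈ nm V) (h1 : a * a ∈ V)
    (h2 : b * b ∈ V) : (∃ d ∈ nm V, d * a * d⁻¹ * b⁻¹ ∈ V) ∨ ∃ w ∈ nm V, w ∉ V ∧
      w * a * w⁻¹ * a⁻¹ ∈ V ∧ w * b * w⁻¹ * b⁻¹ ∈ V ∧
      ∃ d ∈ nm V, d * a * d⁻¹ * (w * a)⁻¹ ∈ V ∨ d * b * d⁻¹ * (w * a)⁻¹ ∈ V := by
  let f := QuotientGroup.mk' (V.subgroupOf (nm V))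
  have hf : ∀ x : nm V, f x = 1 ↔ (x : G) ∈ V := fun x => QuotientGroup.eq_one_iff x
  have hs := QuotientGroup.mk'_surjective (V.subgroupOf (nm V))
  rcases WrO.dihedral (a := f ⟨a, ha⟩) (b := f ⟨b, hb⟩) (by rwa [← map_mul, hf])
    (by rwa [← map_mul, hf]) with ⟨d, -, e⟩ | ⟨w, -, e1, e2, e3, e4⟩
  · obtain ⟨d, rfl⟩ := hs d
    refine .inl ⟨d, d.2, (hf (d * ⟨a, ha⟩ * d⁻¹ * ⟨b, hb⟩⁻¹)).1 ?_⟩
    simp only [map_mul, map_inv]; rw [e, mul_inv_cancel]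
  obtain ⟨w, rfl⟩ := hs w
  refine .inr ⟨w, w.2, mt (hf w).2 e1, (hf (w * ⟨a, ha⟩ * w⁻¹ * ⟨a, ha⟩⁻¹)).1 ?_,
    (hf (w * ⟨b, hb⟩ * w⁻¹ * ⟨b, hb⟩⁻¹)).1 ?_, ?_⟩
  · simp only [map_mul, map_inv]; rw [cj_eq e2, mul_inv_cancel]
  · simp only [map_mul, map_inv]; rw [cj_eq e3, mul_inv_cancel]
  rcases e4 with ⟨⟨d, -, e⟩, -⟩ | ⟨⟨d, -, e⟩, -⟩ <;> obtain ⟨d, rfl⟩ := hs d
  · refine ⟨d, d.2, .inl ((hf (d * ⟨a, ha⟩ * d⁻¹ * (w * ⟨a, ha⟩)⁻¹)).1 ?_)⟩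
    simp only [map_mul, map_inv]; rw [e, mul_inv_cancel]
  · refine ⟨d, d.2, .inr ((hf (d * ⟨b, hb⟩ * d⁻¹ * (w * ⟨a, ha⟩)⁻¹)).1 ?_)⟩
    simp only [map_mul, map_inv]; rw [e, mul_inv_cancel]

namespace TI

variable (T : TI P)
include T

theorem fus (hR : P R) (hR' : P R') (ha : a ∈ R) (a1 : a ≠ 1) (h : g * a * g⁻¹ ∈ R') : g •ᶜ R = R' :=
  T.ti (T.cj g hR) hR' (conj_mem_cj ha) h (mt conj_eq_one_iff.1 a1)

theorem nm_of (hR : P R) (ha : a ∈ R) (a1 : a ≠ 1) (h : g * a * g⁻¹ ∈ R) : g ∈ nm R :=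
  mem_normalizer_iff_cj.2 (T.fus hR hR ha a1 h)

theorem cen (hR : P R) (ha : a ∈ R) (a1 : a ≠ 1) (c : Commute g a) : g ∈ nm R :=
  T.nm_of hR ha a1 ((cj_eq c).symm ▸ ha)

theorem mulI (hR : P R) (ha : I R a) (hb : I R b) : I R (a * b) :=
  ⟨mul_mem ha.1 hb.1, by rw [(T.ab hR hb.1 ha.1).mul_mul_mul_comm, ha.2, hb.2, mul_one]⟩

theorem cm_self (hR : P R) : Cm R R := fun _ ha _ hb => T.ab hR ha hb

theorem exI (hR : P R) : ∃ a, I R a ∧ a ≠ 1 :=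
  let ⟨s, _, h, _, h1, _⟩ := T.f4 hR
  ⟨s, h, h1⟩

theorem four (hR : P R) (hs : I R s) (ht : I R t) (s1 : s ≠ 1) (t1 : t ≠ 1) (st : s ≠ t)
    (c1 : Commute b (s * b * s⁻¹)) (c2 : Commute b (t * b * t⁻¹))
    (c3 : Commute b (s * t * b * (s * t)⁻¹)) : b * b ∈ nm R := by
  have n1 := T.cen hR hs.1 s1 (cm_nrm hs.2 c1)
  have n2 := T.cen hR ht.1 t1 (cm_nrm ht.2 c2)
  have n3 := T.cen hR (mul_mem hs.1 ht.1) (fun e => st (ht.inv ▸ eq_inv_of_mul_eq_one_left e))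
    (cm_nrm (T.mulI hR hs ht).2 c3)
  have hs' := le_normalizer hs.1
  convert mul_mem (mul_mem n1 n3) (inv_mem (mul_mem (mul_mem hs' n2) (inv_mem hs'))) using 1
  calc b * b = b * ((s * b * s⁻¹) * b * (s * b * s⁻¹)⁻¹) := by rw [cj_eq c1.symm]
    _ = b * ((s * b * s⁻¹) * b * ((s * t * b * (s * t)⁻¹) * (s * b * s⁻¹)⁻¹ *
      (s * t * b * (s * t)⁻¹)⁻¹)) := by
        rw [cj_eq (a := s * t * b * (s * t)⁻¹)]
        convert ((cm_cj s).2 c2).symm.inv_right using 1; group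
    _ = _ := by
      have := ((cm_cj s).2 c2).eq
      calc _ = b * (s * b * s⁻¹) * (b * (s * t * b * (s * t)⁻¹)) *
          (s * (t * b * t⁻¹) * s⁻¹ * (s * b * s⁻¹))⁻¹ := by group
        _ = _ := by rw [← this]; group

theorem four' (hR : P R) (h : ∀ s, I R s → s ≠ 1 → Commute b (s * b * s⁻¹)) : b * b ∈ nm R :=
  let ⟨_, _, hs, ht, s1, t1, st⟩ := T.f4 hR
  T.four hR hs ht s1 t1 st (h _ hs s1) (h _ ht t1) (h _ (T.mulI hR hs ht)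
    fun e => st (ht.inv ▸ eq_inv_of_mul_eq_one_left e))

theorem cm_nr (hR : P R) (hR' : P R') (h : Cm R R') : Nr R R' :=
  let ⟨a, ha, a1⟩ := T.exI hR
  let ⟨x, hx, x1⟩ := T.exI hR'
  ⟨x, hx.1, x1, T.cen hR ha.1 a1 (h a ha.1 x hx.1).symm⟩

theorem nr_symm [Finite G] (hR : P R) (hR' : P R') (h : Nr R R') : Nr R' R := by
  obtain ⟨x, hx, x1, hn⟩ := h
  obtain ⟨a, ha, a1⟩ := T.exI hR
  obtain ⟨y, y1⟩ := ne_bot_iff_exists_ne_one.1 (inf_centralizer_ne_bot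
    ((T.p2 hR').to_le (zpowers_le_of_mem hx)) (T.p2 hR) (zpowers_le_of_mem hn)
    (ne_bot_iff_exists_ne_one.2 ⟨⟨a, ha.1⟩, mt Subtype.ext_iff.1 a1⟩))
  exact ⟨y, y.2.1, fun e => y1 (Subtype.ext e), T.cen hR' hx x1 (Commute.symm (y.2.2 x (mem_zpowers x)))⟩

end TI

end CL.TIA
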