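import Cfsg.Agent.INV.TIA.Perp

/-!
Lines, and pairs of involutions generating a dihedral group of order eight.
-/

set_option autoImplicit false

namespace CL.TIA

open Subgroup Cfsg CL.MSS CL.Sym4

variable {G : Type*} [Group G] {P : Subgroup G → Prop} {R R' D H : Subgroup G}
  {a b c d e g m s t v w x y : G}

theorem parity {α : Type*} [Finite α] {f g : α → α} (hf : Function.Involutive f)
    (hg : Function.Involutive g) {a : α} (ha : f a = a) (u : ∀ b, f b = b → b = a) : ∃ b, g b = b := by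
  have := Fintype.ofFinite α
  have k : ∀ {f : α → α} (hf : Function.Involutive f), hf.toPerm f ^ 2 ^ 1 = 1 := fun hf =>
    Equiv.ext fun x => hf x
  refine Equiv.Perm.exists_fixed_point_of_prime (fun e => ?_) (k hg)
  obtain ⟨b, h1, h2⟩ := Equiv.Perm.exists_fixed_point_of_prime' e (k hf) ha
  exact h2 (u b h1)

theorem red (hs : s * s = 1) (k : ℕ) : ∀ {t : G}, t * t = 1 → (s * t) ^ 2 ^ k = 1 → ¬ Commute s t →
    ∃ t', (t' = t ∨ ∃ u : G, t' = u * s * u⁻¹) ∧ s * t' ∈ zpowers (s * t) ∧ ¬ Commute s t' ∧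
      Commute s (t' * s * t'⁻¹) := by
  induction k with
  | zero => exact fun {t} _ e c => (c (by
      rw [eq_inv_of_mul_eq_one_right (show s * t = 1 by simpa using e)]
      exact (Commute.refl s).inv_right)).elim
  | succ k ih =>
    intro t ht e c
    by_cases c' : Commute s (t * s * t⁻¹)
    · exact ⟨t, Or.inl rfl, mem_zpowers _, c, c'⟩
    have e1 : s * (t * s * t⁻¹) = (s * t) ^ 2 := by rw [inv_of_sq ht, pow_two]; group
    obtain ⟨t', h1, h2, h3⟩ := ih (by rw [cj_mul_cj, hs]; simp) (by rwa [e1, ← pow_mul, ← pow_succ']) c'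
    exact ⟨t', Or.inr (h1.elim (⟨t, ·⟩) id),
      zpowers_le_of_mem (e1 ▸ pow_mem (mem_zpowers _) 2) h2, h3⟩

/-- `Ω₁(R)`. -/
def om (R : Subgroup G) : Subgroup G := closure {a | I R a}

theorem I.om (h : I R a) : a ∈ om R := subset_closure h

theorem cj_om (g : G) (R : Subgroup G) : g •ᶜ om R = om (g •ᶜ R) := by
  rw [om, cj_closure]
  exact congrArg _ (Set.ext fun a => ⟨fun ⟨_, h, e⟩ => e ▸ I.cj h g, fun h => h.of_cj⟩)

namespace TI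

variable (T : TI P)
include T

theorem mem_om (hR : P R) : a ∈ om R ↔ I R a :=
  ⟨fun h => closure_induction (fun _ => id) I.one (fun _ _ _ _ => T.mulI hR)
    (fun _ _ h => h.inv.symm ▸ h) h, I.om⟩

theorem cover [Finite G] (hD : P D) (hR : P R) (h : ∀ t, I D t → ∃ x, I R x ∧ x * (y * x * y⁻¹) = t)
    (hx : I R x) : I D (x * (y * x * y⁻¹)) := by
  choose! f h1 h2 using h
  obtain ⟨t, ht, rfl⟩ := T.surj hD hR f h1 (fun a b ha hb e => by rw [← h2 a ha, e, h2 b hb]) hx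
  rwa [h2 t ht]

theorem cI [Finite G] (hR : P R) (hR' : P R') (h : Nr R R') (ha : I R a) (hx : I R' x) : Commute a x := by
  by_cases c : Cm R R'
  exacts [c a ha.1 x hx.1, Pp.cI ⟨T, hR, hR', h, c⟩ ha hx]

theorem cm_of [Finite G] (hR : P R) (hR' : P R') (ha : a ∈ R) (a2 : a * a ≠ 1) (h : a ∈ nm R') :
    Cm R R' := by_contra fun c => a2 (Pp.elY ⟨T, hR, hR', T.nr_symm hR' hR
      ⟨a, ha, fun e => a2 (by simp [e]), h⟩, c⟩ ha h)

end TI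

namespace Pp

variable [Finite G] (h : Pp P R R')
include h

theorem memL : v ∈ om R ⊔ om R' ↔ ∃ a x, I R a ∧ I R' x ∧ a * x = v := by
  rw [mem_sup_of_normalizes_right fun y hy => mem_normalizer_of_cj_le (cj_le_iff_forall.2 fun x hx =>
    (cj_eq (h.cI ((h.T.mem_om h.p).1 hy) ((h.T.mem_om h.p').1 hx))).symm ▸ hx)]
  simp only [h.T.mem_om h.p, h.T.mem_om h.p']
  exact ⟨fun ⟨a, h1, x, h2, e⟩ => ⟨a, x, h1, h2, e⟩, fun ⟨a, x, h1, h2, e⟩ => ⟨a, h1, x, h2, e⟩⟩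

theorem cL (hv : v ∈ om R ⊔ om R') (hw : w ∈ om R ⊔ om R') : Commute v w := by
  obtain ⟨y, x, hy, hx, rfl⟩ := h.memL.1 hv
  obtain ⟨y', x', hy', hx', rfl⟩ := h.memL.1 hw
  exact ((h.T.ab h.p hy.1 hy'.1).mul_right (h.cI hy hx')).mul_left
    ((h.cI hy' hx).symm.mul_right (h.T.ab h.p' hx.1 hx'.1))

theorem sqL (hv : v ∈ om R ⊔ om R') : v * v = 1 := by
  obtain ⟨y, x, hy, hx, rfl⟩ := h.memL.1 hv
  rw [(h.cI hy hx).symm.mul_mul_mul_comm, hy.2, hx.2, mul_one]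

theorem nmL (h1 : ∀ a, I R a → g * a * g⁻¹ ∈ om R ⊔ om R')
    (h2 : ∀ x, I R' x → g * x * g⁻¹ ∈ om R ⊔ om R') : g ∈ nm (om R ⊔ om R') :=
  mem_normalizer_of_cj_le (cj_le_iff_forall.2 fun v hv => by
    obtain ⟨y, x, hy, hx, rfl⟩ := h.memL.1 hv
    exact cj_mul_cj g y x ▸ mul_mem (h1 y hy) (h2 x hx))

theorem RL (hb : b ∈ R) : b ∈ nm (om R ⊔ om R') :=
  h.nmL (fun a ha => mem_sup_left (ha.nm (le_normalizer hb)).om) fun x hx => by
    obtain ⟨a, ha, e⟩ := h.act hb hx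
    exact e ▸ mul_mem (mem_sup_right hx.om) (mem_sup_left ha.om)

theorem cenL (hb : b ∈ R) (b2 : b * b ≠ 1) (hv : v ∈ om R ⊔ om R') (c : Commute b v) : I R v := by
  obtain ⟨y, x, hy, hx, rfl⟩ := h.memL.1 hv
  rwa [h.inj hb b2 hx.1 (by simpa using (h.T.ab h.p hb hy.1).inv_right.mul_right c), mul_one]

theorem LN (hD : P D) (l : om D ≤ om R ⊔ om R') (hv : v ∈ om R ⊔ om R') : v ∈ nm D :=
  let ⟨_, ht, t1⟩ := h.T.exI hD
  h.T.cen hD ht.1 t1 (h.cL hv (l ht.om))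

theorem eq_of (hD : P D) (l : om D ≤ om R ⊔ om R') (hb : b ∈ R) (b2 : b * b ≠ 1) (n : b ∈ nm D) :
    D = R :=
  let ⟨_, ht, t1⟩ := h.T.exI hD
  h.T.ti hD h.p ht.1 (h.cenL hb b2 (l ht.om) (h.T.cm_of h.p hD hb b2 n _ hb _ ht.1)).1 t1

theorem pp_of (hD : P D) (l : om D ≤ om R ⊔ om R') (n : D ≠ R) : Pp P D R :=
  let ⟨_, ht, t1⟩ := h.T.exI h.p
  let ⟨_, hb, b2, _⟩ := h.T.o4 h.p
  let ⟨_, hs, s1⟩ := h.T.exI hD
  ⟨h.T, hD, h.p, ⟨_, ht.1, t1, h.LN hD l (mem_sup_left ht.om)⟩, fun c =>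
    n (h.eq_of hD l hb b2 (h.T.cen hD hs.1 s1 (c _ hs.1 _ hb).symm))⟩

theorem fix (hy : y ∈ nm (om R ⊔ om R')) (y2 : y * y ∈ om R ⊔ om R') :
    ∃ D, P D ∧ om D ≤ om R ⊔ om R' ∧ y ∈ nm D := by
  let f := fun (n : G) (hn : n ∈ nm (om R ⊔ om R')) (D : {D // P D ∧ om D ≤ om R ⊔ om R'}) =>
    (⟨n •ᶜ D.1, h.T.cj n D.2.1, cj_om n D.1 ▸ cj_le_of_mem_normalizer D.2.2 hn⟩ :
      {D // P D ∧ om D ≤ om R ⊔ om R'})
  have k : ∀ n hn, n * n ∈ om R ⊔ om R' → Function.Involutive (f n hn) := fun n hn n2 D =>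
    Subtype.ext (by rw [← mem_normalizer_iff_cj.1 (h.LN D.2.1 D.2.2 n2), cj_mul])
  obtain ⟨b, hb, b2, -⟩ := h.T.o4 h.p
  obtain ⟨D, e⟩ := parity (k b (h.RL hb) (mem_sup_left (h.sq hb).om)) (k y hy y2)
    (a := ⟨R, h.p, le_sup_left⟩) (Subtype.ext (cj_eq_of_mem hb)) fun D e =>
      Subtype.ext (h.eq_of D.2.1 D.2.2 hb b2 (mem_normalizer_iff_cj.2 (congrArg Subtype.val e)))
  exact ⟨D, D.2.1, D.2.2, mem_normalizer_iff_cj.2 (congrArg Subtype.val e)⟩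

end Pp

theorem cj_cj (y2 : y * y = 1) (R : Subgroup G) : y •ᶜ y •ᶜ R = R := by rw [← cj_mul, y2, cj_one]

theorem Pp.swL [Finite G] (h : Pp P R (y •ᶜ R)) (y2 : y * y = 1) : y ∈ nm (om R ⊔ om (y •ᶜ R)) :=
  h.nmL (fun _ ha => mem_sup_right (ha.cj y).om) fun _ hx => mem_sup_left (cj_cj y2 R ▸ hx.cj y).om

theorem Pp.diag [Finite G] (h : Pp P R (y •ᶜ R)) (y2 : y * y = 1) (ht : t ∈ om R ⊔ om (y •ᶜ R))
    (c : Commute y t) : ∃ x, I R x ∧ x * (y * x * y⁻¹) = t := by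
  obtain ⟨x, _, hx, h1, rfl⟩ := h.memL.1 ht
  obtain ⟨u, hu, rfl⟩ := h1.of_cj
  have e : x⁻¹ * u = y * (u * x⁻¹) * y⁻¹ := by
    have := cj_eq c
    rw [← cj_mul_cj, show y * (y * u * y⁻¹) * y⁻¹ = y * y * u * (y * y)⁻¹ by group, y2,
      ← (h.cI (by simpa using hu) (hx.cj y)).eq] at this
    calc x⁻¹ * u = x⁻¹ * (1 * u * 1⁻¹ * (y * x * y⁻¹)) * (y * x * y⁻¹)⁻¹ := by group
      _ = _ := by rw [this]; group
  have := h.dis (mul_mem (inv_mem hx.1) hu.1) (e ▸ conj_mem_cj (mul_mem hu.1 (inv_mem hx.1)))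
  exact ⟨x, hx, by rw [inv_mul_eq_one.1 this]⟩

structure D8 (P : Subgroup G → Prop) (R R' : Subgroup G) (x y : G) : Prop where
  T : TI P
  p : P R
  p' : P R'
  hx : I R x
  hy : I R' y
  nc : ¬ Commute x y
  c : Commute x (y * x * y⁻¹)

structure St (P : Subgroup G → Prop) (D R R' : Subgroup G) : Prop where
  h : Pp P D R
  k : Pp P D R'
  far : ¬ Nr R R'
  cm : ∀ {x y}, I R x → I R' y → ∃ a, I D a ∧ y * x * y⁻¹ = x * a

namespace D8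

variable (h : D8 P R R' x y)
include h

theorem symm : D8 P R' R y x := ⟨h.T, h.p', h.p, h.hy, h.hx, mt Commute.symm h.nc, by
  have := h.c.eq
  rw [h.hy.inv] at this
  rw [commute_iff_eq, h.hx.inv]
  simpa only [mul_assoc] using this.symm⟩

theorem x1 : x ≠ 1 := fun e => h.nc (e ▸ Commute.one_left y)

variable [Finite G]

theorem far : ¬ Nr R R' := fun n => h.nc (h.T.cI h.p h.p' n h.hx h.hy)

theorem nr : Nr R (y •ᶜ R) :=
  ⟨_, conj_mem_cj h.hx.1, mt conj_eq_one_iff.1 h.x1, h.T.cen h.p h.hx.1 h.x1 h.c.symm⟩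

theorem exD (k : Pp P R (y •ᶜ R)) : ∃ D, Pp P D R ∧ ∀ x', I R x' → I D (x' * (y * x' * y⁻¹)) := by
  obtain ⟨D, hD, l, n⟩ := k.fix (k.swL h.hy.2) (h.hy.2 ▸ one_mem _)
  exact ⟨D, k.pp_of hD l fun e => h.far ⟨y, h.hy.1, h.symm.x1, e ▸ n⟩, fun x' => h.T.cover hD h.p
    fun t ht => k.diag h.hy.2 (l ht.om) (h.T.cI hD h.p' ⟨y, h.hy.1, h.symm.x1, n⟩ ht h.hy).symm⟩

theorem all (c : ∀ s, I R' s → s ≠ 1 → Cm R (s •ᶜ R)) : False :=
  let ⟨a, ha, a2, _⟩ := h.T.o4 h.p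
  h.symm.far ⟨_, mul_mem ha ha, a2, h.T.four' h.p' fun s hs s1 => c s hs s1 a ha _ (conj_mem_cj ha)⟩

theorem zeta (hs : s * s = 1) : s * (x * s * x⁻¹) = s * x * s⁻¹ * x := by
  rw [inv_of_sq hs, h.hx.inv]; group

theorem mixed (k : Pp P R' (x •ᶜ R')) (c : Cm R (y •ᶜ R)) : False := by
  obtain ⟨D, hD, e⟩ := h.symm.exD k
  obtain ⟨a, ha, a2, -⟩ := h.T.o4 h.p
  have c1 := h.T.cm_of h.p hD.p ha a2 (h.T.cen hD.p (e y h.hy).1
    (fun f => h.nc (cm_iff.2 ((eq_inv_of_mul_eq_one_right f).trans h.hy.inv))) (by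
      rw [h.zeta h.hy.2]
      exact (c a ha _ (conj_mem_cj h.hx.1)).mul_right (h.T.ab h.p ha h.hx.1)))
  refine h.all fun s hs s1 => h.T.cm_of h.p (h.T.cj s h.p) ha a2 (h.T.cen (h.T.cj s h.p)
    (conj_mem_cj h.hx.1) (mt conj_eq_one_iff.1 h.x1) ?_)
  simpa only [h.zeta hs.2, mul_inv_cancel_right] using
    (c1 a ha _ (e s hs).1).mul_right (h.T.ab h.p ha h.hx.1).inv_right

theorem pp : Pp P R (y •ᶜ R) := ⟨h.T, h.p, h.T.cj y h.p, h.nr, fun c => h.symm.all fun s hs s1 => by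
  by_contra c'
  have k : D8 P R R' s y := ⟨h.T, h.p, h.p', hs, h.hy,
    fun f => h.symm.far ⟨s, hs.1, s1, h.T.cen h.p' h.hy.1 h.symm.x1 f⟩, c s hs.1 _ (conj_mem_cj hs.1)⟩
  exact k.mixed ⟨h.T, h.p', h.T.cj s h.p', k.symm.nr, c'⟩ c⟩

theorem z1 : x * (y * x * y⁻¹) ≠ 1 := fun f =>
  h.nc (cm_iff.2 ((eq_inv_of_mul_eq_one_right f).trans h.hx.inv)).symm

theorem zz : x * (y * x * y⁻¹) = y * (x * y * x⁻¹) := by rw [h.c.eq, h.zeta h.hy.2]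

theorem st : ∃ D, St P D R R' := by
  obtain ⟨D, hD, e⟩ := h.symm.exD h.symm.pp
  have key : ∀ s, I R' s → s ≠ 1 → Pp P D R ∧ ∀ x', I R x' → I D (x' * (s * x' * s⁻¹)) := fun s hs s1 => by
    have k : D8 P R' R s x := ⟨h.T, h.p', h.p, hs, h.hx,
      fun f => h.far ⟨s, hs.1, s1, h.T.cen h.p h.hx.1 h.x1 f⟩, by
        simpa using (Commute.refl s).inv_right.mul_right (hD.cI (e s hs) hs).symm⟩
    obtain ⟨D', hD', e'⟩ := k.symm.exD k.symm.pp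
    obtain rfl := h.T.ti hD.p hD'.p (e s hs).1 (k.zz ▸ (e' x h.hx).1) k.z1
    exact ⟨hD', e'⟩
  refine ⟨D, (key y h.hy h.symm.x1).1, hD, h.far, fun {x' s} hx' hs => ?_⟩
  by_cases s1 : s = 1
  · exact ⟨1, I.one, by simp [s1]⟩
  exact ⟨_, (key s hs s1).2 x' hx', by rw [← mul_assoc, hx'.2, one_mul]⟩

end D8

end CL.TIA
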