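import Cfsg.Agent.INV.TIA.Defs

/-!
Near pairs which do not commute.
-/

set_option autoImplicit false

namespace CL.TIA

open Subgroup Cfsg CL.MSS CL.Sym4

variable {G : Type*} [Group G] {P : Subgroup G → Prop} {R R' R'' H : Subgroup G}
  {a b c d e g m s t v w x y : G}

structure Pp (P : Subgroup G → Prop) (R R' : Subgroup G) : Prop where
  T : TI P
  p : P R
  p' : P R'
  nr : Nr R R'
  nc : ¬ Cm R R'

theorem TI.surj [Finite G] (T : TI P) (hR : P R) (hR' : P R') (f : G → G)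
    (h1 : ∀ a, I R a → I R' (f a)) (h2 : ∀ a b, I R a → I R b → f a = f b → a = b) (ht : I R' t) :
    ∃ a, I R a ∧ f a = t := by
  obtain ⟨g, rfl⟩ := T.tr hR hR'
  have : {a | I (g •ᶜ R) a} = (fun a => g * a * g⁻¹) '' {a | I R a} :=
    Set.ext fun a => ⟨fun h => h.of_cj, fun ⟨_, h, e⟩ => e ▸ I.cj h g⟩
  obtain ⟨a, ha, e⟩ := Set.surj_on_of_inj_on_of_ncard_le (s := {a | I R a}) (t := {a | I (g •ᶜ R) a})
    (fun a _ => f a) h1 (fun a b ha hb => h2 a b ha hb)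
    (by rw [this]; exact Set.ncard_image_le) (Set.toFinite _) t ht
  exact ⟨a, ha, e.symm⟩

namespace Pp

variable (h : Pp P R R')
include h

theorem cj (g : G) : Pp P (g •ᶜ R) (g •ᶜ R') :=
  ⟨h.T, h.T.cj g h.p, h.T.cj g h.p', h.nr.cj g, fun c => h.nc (by simpa only [inv_cj_cj] using c.cj g⁻¹)⟩

theorem ne : R ≠ R' := fun e => h.nc (e ▸ h.T.cm_self h.p)

theorem dis (ha : a ∈ R) (ha' : a ∈ R') : a = 1 := by_contra fun e => h.ne (h.T.ti h.p h.p' ha ha' e)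

theorem cXY (ha : a ∈ R) (ha' : a ∈ nm R') (hx : x ∈ R') (hx' : x ∈ nm R) : Commute a x := by
  rw [cm_iff, ← mul_inv_eq_one]
  exact h.dis (by simpa only [mul_assoc] using mul_mem ha (nmem hx' (inv_mem ha)))
    (mul_mem (nmem ha' hx) (inv_mem hx))

variable [Finite G]

theorem symm : Pp P R' R := ⟨h.T, h.p', h.p, h.T.nr_symm h.p h.p' h.nr, mt Cm.symm h.nc⟩

theorem elY (ha : a ∈ R) (ha' : a ∈ nm R') : a * a = 1 := by
  obtain ⟨g, rfl⟩ := h.T.tr h.p h.p'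
  rcases Agent.S1781.result R (h.T.p2 h.p) ⟨⟨fun x y => Subtype.ext (h.T.ab h.p x.2 y.2)⟩⟩
    (fun k => or_iff_not_imp_left.2 fun e => eq_bot_iff.2 fun x hx => by_contra fun x1 =>
      e (h.T.ti (h.T.cj k h.p) h.p hx.1 hx.2 x1)) g h.ne.symm with e | e
  · rw [← pow_two]; exact e.2 a ⟨ha, ha'⟩
  · exact (h.nc fun a ha c hc => commutatorElement_eq_one_iff_commute.1
      (mem_bot.1 (e ▸ commutator_mem_commutator ha hc))).elim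

theorem nrm (hx : x ∈ R') (hx' : x ∈ nm R) (x1 : x ≠ 1) (ha : a ∈ R) : a * (x * a * x⁻¹) ∈ nm R' :=
  h.T.cen h.p' hx x1 (cm_nrm (h.symm.elY hx hx') (h.T.ab h.p ha (nmem hx' ha)))

theorem fourY : ∃ s t, (s ∈ R ∧ s ∈ nm R') ∧ (t ∈ R ∧ t ∈ nm R') ∧ s ≠ 1 ∧ t ≠ 1 ∧ s ≠ t := by
  by_contra hc
  push Not at hc
  obtain ⟨x, hx, x1, hx'⟩ := h.nr
  have n := fun a ha => And.intro (mul_mem ha (nmem hx' ha)) (h.nrm (a := a) hx hx' x1 ha)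
  obtain ⟨s, hs, sN⟩ : ∃ s, I R s ∧ s ∉ nm R' := by
    obtain ⟨s, t, hs, ht, s1, t1, st⟩ := h.T.f4 h.p
    by_contra hd
    push Not at hd
    exact st (hc s t ⟨hs.1, hd s hs⟩ ⟨ht.1, hd t ht⟩ s1 t1)
  have key : ∀ b ∈ R, b * b ≠ 1 → b * b * (b * b) = 1 → b * (x * b * x⁻¹) = 1 := fun b hb b2 b4 => by
    by_contra e
    have c := h.T.ab h.p hb (nmem hx' hb)
    have e1 : Commute (b * b) x := by
      have := h.elY (n b hb).1 (n b hb).2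
      rw [c.symm.mul_mul_mul_comm, cj_mul_cj] at this
      exact (cm_iff.2 ((eq_inv_of_mul_eq_one_right this).trans (inv_of_sq b4))).symm
    have e2 := hc _ _ (n b hb) ⟨mul_mem hb hb, h.T.cen h.p' hx x1 e1⟩ e b2
    exact b2 (h.elY hb (h.T.cen h.p' hx x1 (cm_iff.2 (mul_left_cancel e2)).symm))
  obtain ⟨b, hb, b2, b4⟩ := h.T.o4 h.p
  have e : b * s * (b * s) = b * b := by
    rw [(h.T.ab h.p hs.1 hb).mul_mul_mul_comm, hs.2, mul_one]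
  have e1 := key _ (mul_mem hb hs.1) (e ▸ b2) (e ▸ b4)
  rw [← cj_mul_cj, (h.T.ab h.p hs.1 (nmem hx' hb)).mul_mul_mul_comm, key b hb b2 b4, one_mul] at e1
  exact sN (h.T.cen h.p' hx x1 (cm_iff.2 ((eq_inv_of_mul_eq_one_right e1).trans hs.inv)).symm)

theorem sqN (hb : b ∈ R) : b * b ∈ nm R' := by
  obtain ⟨s, t, hs, ht, s1, t1, st⟩ := h.symm.fourY
  exact h.T.four h.p' ⟨hs.1, h.symm.elY hs.1 hs.2⟩ ⟨ht.1, h.symm.elY ht.1 ht.2⟩ s1 t1 st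
    (h.T.ab h.p hb (nmem hs.2 hb)) (h.T.ab h.p hb (nmem ht.2 hb))
    (h.T.ab h.p hb (nmem (mul_mem hs.2 ht.2) hb))

theorem sq (hb : b ∈ R) : I R (b * b) := ⟨mul_mem hb hb, h.elY (mul_mem hb hb) (h.sqN hb)⟩

theorem act0 (hb : b ∈ R) (hx : x ∈ R') (hx' : x ∈ nm R) :
    ∃ a, (a ∈ R ∧ a ∈ nm R') ∧ b * x * b⁻¹ = x * a := by
  by_cases x1 : x = 1
  · exact ⟨1, ⟨one_mem _, one_mem _⟩, by simp [x1]⟩
  have e : x⁻¹ * b * x * b⁻¹ = b * (x * b * x⁻¹) * (b * b)⁻¹ := by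
    rw [(h.T.ab h.p hb (nmem hx' hb)).eq, inv_of_sq (h.symm.elY hx hx')]; group
  exact ⟨x⁻¹ * b * x * b⁻¹, ⟨mul_mem (nmem' hx' hb) (inv_mem hb),
    e ▸ mul_mem (h.nrm hx hx' x1 hb) (inv_mem (h.sqN hb))⟩, by group⟩

theorem memV : v ∈ R ⊓ nm R' ⊔ R' ⊓ nm R ↔
    ∃ y, (y ∈ R ∧ y ∈ nm R') ∧ ∃ x, (x ∈ R' ∧ x ∈ nm R) ∧ y * x = v :=
  mem_sup_of_normalizes_right fun y hy => mem_normalizer_of_cj_le (cj_le_iff_forall.2 fun x hx =>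
    (cj_eq (h.cXY hy.1 hy.2 hx.1 hx.2)).symm ▸ hx)

theorem leV (hb : b ∈ R) : b ∈ nm (R ⊓ nm R' ⊔ R' ⊓ nm R) :=
  mem_normalizer_of_cj_le (cj_le_iff_forall.2 fun v hv => by
    obtain ⟨y, hy, x, hx, rfl⟩ := h.memV.1 hv
    obtain ⟨a, ha, e⟩ := h.act0 hb hx.1 hx.2
    rw [← cj_mul_cj, e, cj_eq (h.T.ab h.p hb hy.1)]
    exact mul_mem (mem_sup_left hy) (mul_mem (mem_sup_right hx) (mem_sup_left ha)))

theorem cV (hv : v ∈ R ⊓ nm R' ⊔ R' ⊓ nm R) (hw : w ∈ R ⊓ nm R' ⊔ R' ⊓ nm R) : Commute v w := by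
  obtain ⟨y, hy, x, hx, rfl⟩ := h.memV.1 hv
  obtain ⟨y', hy', x', hx', rfl⟩ := h.memV.1 hw
  exact ((h.T.ab h.p hy.1 hy'.1).mul_right (h.cXY hy.1 hy.2 hx'.1 hx'.2)).mul_left
    ((h.cXY hy'.1 hy'.2 hx.1 hx.2).symm.mul_right (h.T.ab h.p' hx.1 hx'.1))

theorem cenV (hb : b ∈ R) (hb' : b ∉ nm R') (hv : v ∈ R ⊓ nm R' ⊔ R' ⊓ nm R) (c : Commute b v) :
    v ∈ R := by
  obtain ⟨y, hy, x, hx, rfl⟩ := h.memV.1 hv
  obtain rfl : x = 1 := by_contra fun x1 => hb' (h.T.cen h.p' hx.1 x1 (by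
    simpa using (h.T.ab h.p hb hy.1).inv_right.mul_right c))
  simpa using hy.1

theorem VN (hv : v ∈ R ⊓ nm R' ⊔ R' ⊓ nm R) : v ∈ nm R :=
  sup_le (inf_le_left.trans le_normalizer) inf_le_right hv

theorem nI (ht : I R t) : t ∈ nm R' := by
  by_contra tN
  have T := h.T
  have k := h.symm
  obtain ⟨c, hc, c2, -⟩ := T.o4 h.p'
  have cN : c ∉ nm R := fun e => c2 (k.elY hc e)
  have kc := fun v => k.cenV (v := v) hc cN
  have kV := fun v => k.VN (v := v)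
  have kl := k.leV hc
  rw [sup_comm] at kc kV kl
  have hl := h.leV ht.1
  have cV := fun v w => h.cV (v := v) (w := w)
  have VN := fun v => h.VN (v := v)
  have hc' := fun v => h.cenV (v := v) ht.1 tN
  have lY : ∀ y ∈ R, y ∈ nm R' → y ∈ R ⊓ nm R' ⊔ R' ⊓ nm R := fun y a b => mem_sup_left ⟨a, b⟩
  have lX : ∀ y ∈ R', y ∈ nm R → y ∈ R ⊓ nm R' ⊔ R' ⊓ nm R := fun y a b => mem_sup_right ⟨a, b⟩
  generalize R ⊓ nm R' ⊔ R' ⊓ nm R = V at *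
  obtain ⟨x, hx, x1, hx'⟩ := h.nr
  obtain ⟨y, hy, y1, hy'⟩ := k.nr
  have tr : ∀ {d a b v}, d ∈ nm V → v ∈ V → d * a * d⁻¹ * b⁻¹ ∈ V → Commute a v →
      Commute b (d * v * d⁻¹) := fun {d a b v} hd hv e c => by
    simpa [mul_assoc] using (cV _ _ e (nmem hd hv)).inv_left.mul_left ((cm_cj d).2 c)
  rcases dmod hl kl (ht.2 ▸ one_mem _) (lX _ (mul_mem hc hc) (k.sqN hc)) with
    ⟨d, hd, e⟩ | ⟨w, hw, wV, e1, e2, d, hd, e3⟩
  · have e1 := T.fus h.p h.p' hy y1 (kc _ (nmem hd (lY y hy hy')) (tr hd (lY y hy hy') e (T.ab h.p ht.1 hy)))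
    have e2 := e1 ▸ ht.cj d
    have e3 := mul_mem e2.1 (inv_mem hc)
    have e4 := k.elY e3 (VN _ e)
    rw [(T.ab h.p' (inv_mem hc) e2.1).mul_mul_mul_comm, e2.2, one_mul, ← mul_inv_rev, inv_eq_one] at e4
    exact c2 e4
  have w1 := T.nm_of h.p hy y1 (hc' _ (nmem hw (lY y hy hy')) (tr hw (lY y hy hy') e1 (T.ab h.p ht.1 hy)))
  have w2 := T.nm_of h.p' hx x1 (kc _ (nmem hw (lX x hx hx')) (tr hw (lX x hx hx') e2 (T.ab h.p' hc hx)))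
  have key : ∀ R'' u, P R'' → u ∈ R'' → u ∈ nm V → u * u ∈ V → (∀ v ∈ V, Commute u v → v ∈ R'') →
      d * u * d⁻¹ * (w * t)⁻¹ ∉ V := fun R'' u p hu un u2 cu f => by
    have eN : d * u * d⁻¹ ∈ nm R :=
      (mul_mem_cancel_right (inv_mem (mul_mem w1 (le_normalizer ht.1)))).1 (VN _ f)
    have eV := mul_mem (mul_mem hd un) (inv_mem hd)
    obtain ⟨z, z1, zR, zV, cz⟩ : ∃ z, z ≠ 1 ∧ z ∈ R ∧ z ∈ V ∧ Commute (d * u * d⁻¹) z := by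
      have u3 := cj_mul_cj d u u ▸ nmem hd u2
      generalize d * u * d⁻¹ = e at *
      by_cases cy : Commute e y
      · exact ⟨y, y1, hy, lY y hy hy', cy⟩
      refine ⟨y * (e * y * e⁻¹), fun g => cy (cm_iff.2 ((eq_inv_of_mul_eq_one_right g).trans
        (inv_of_sq (h.elY hy hy')))), mul_mem hy (nmem eN hy),
        mul_mem (lY y hy hy') (nmem eV (lY y hy hy')), cm_iff.2 ?_⟩
      calc _ = e * y * e⁻¹ * (e * e * y * (e * e)⁻¹) := by group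
        _ = _ := by rw [cj_eq (cV _ _ u3 (lY y hy hy')), (T.ab h.p hy (nmem eN hy)).eq]
    have e4 := T.ti (T.cj d p) h.p (mem_cj.2 (cu _ (nmem' hd zV) ((cm_cj' d).1 cz))) zR z1
    have e5 := mul_mem (e4 ▸ conj_mem_cj hu) (inv_mem ht.1)
    have e6 : d * u * d⁻¹ * t⁻¹ = d * u * d⁻¹ * (w * t)⁻¹ * w := by group
    exact wV ((mul_mem_cancel_left f).1 (e6 ▸ lY _ e5 (e6 ▸ mul_mem (kV _ f) w2)))
  exact e3.elim (key R t h.p ht.1 hl (ht.2 ▸ one_mem _) hc')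
    (key R' c h.p' hc kl (lX _ (mul_mem hc hc) (k.sqN hc)) kc)

theorem cI (ha : I R a) (hx : I R' x) : Commute a x := h.cXY ha.1 (h.nI ha) hx.1 (h.symm.nI hx)

theorem act (hb : b ∈ R) (hx : I R' x) : ∃ a, I R a ∧ b * x * b⁻¹ = x * a :=
  let ⟨a, ha, e⟩ := h.act0 hb hx.1 (h.symm.nI hx)
  ⟨a, ⟨ha.1, h.elY ha.1 ha.2⟩, e⟩

theorem inj (hb : b ∈ R) (b2 : b * b ≠ 1) (hx : x ∈ R') (c : Commute b x) : x = 1 :=
  by_contra fun x1 => b2 (h.elY hb (h.T.cen h.p' hx x1 c))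

theorem surj (hb : b ∈ R) (b2 : b * b ≠ 1) (ha : I R a) : ∃ x, I R' x ∧ b * x * b⁻¹ = x * a := by
  obtain ⟨x, hx, e⟩ := h.T.surj h.p' h.p (fun x => x⁻¹ * (b * x * b⁻¹)) (fun x hx => by
    obtain ⟨a, ha, e⟩ := h.act hb hx
    simpa [e] using ha) (fun x y hx hy e => by
      refine mul_inv_eq_one.1 (h.inj hb b2 (mul_mem hx.1 (inv_mem hy.1)) (cm_iff.2 ?_))
      calc _ = x * (x⁻¹ * (b * x * b⁻¹)) * (y⁻¹ * (b * y * b⁻¹))⁻¹ * y⁻¹ := by group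
        _ = _ := by rw [e]; group) ha
  exact ⟨x, hx, by rw [← e]; group⟩

end Pp

end CL.TIA
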